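import Mathlib

/-! Subgroups of `GL₄(2)` with point stabiliser `S₃`: table computations for package L33/NA. -/

set_option autoImplicit false

namespace H69.L33.NA

def look (T v : ℕ) : ℕ := Nat.mod (Nat.shiftRight T (Nat.mul 4 v)) 16

def tab (t f z b : ℕ) : ℕ :=
  Nat.xor (Nat.xor (Nat.mul t 0x1010101010101010) (Nat.mul f 0x1100110011001100))
    (Nat.xor (Nat.mul z 0x1111000011110000) (Nat.mul b 0x1111111100000000))

noncomputable def force (T : ℕ) (k : ℕ → Bool) : Bool :=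
  Nat.rec (k 0) (fun n _ => k (Nat.succ n)) T

def gn (T φ i : ℕ) : ℕ :=
  cond (Nat.beq i 0) T (cond (Nat.beq i 1) 0x7654FEDCBA983210 (cond (Nat.beq i 2) 0xBA98FEDC76543210 φ))

noncomputable def act (T φ : ℕ) (w : List ℕ) (v : ℕ) : ℕ :=
  List.rec v (fun i _ r => look (gn T φ i) r) w

noncomputable def okW (T φ : ℕ) (w : List ℕ) : Bool :=
  force (act T φ w 1) fun u => cond (Nat.beq (Nat.mod u 4) 0) false (cond (Nat.beq u 1)
    (Nat.beq (act T φ w 2) 2 && Nat.beq (Nat.mod (act T φ w 4) 4) 0 &&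
      Nat.beq (Nat.mod (act T φ w 8) 4) 0) true)

noncomputable def allL (l : List ℕ) (p : ℕ → Bool) : Bool :=
  List.rec true (fun i _ r => cond (p i) r false) l

noncomputable def allW (l : List (List ℕ)) (p : List ℕ → Bool) : Bool :=
  List.rec true (fun i _ r => cond (p i) r false) l

def L16 : List ℕ := [0, 1, 2, 3, 4, 5, 6, 7, 8, 9, 10, 11, 12, 13, 14, 15]

noncomputable def nz (T : ℕ) (l : List ℕ) : Bool := allL l fun v => !Nat.beq (look T v) 0

noncomputable def chk (φ : ℕ) (W : List (List ℕ)) (P : ℕ → Bool) (ts : List ℕ) : Bool :=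
  allL ts fun t => allL L16 fun f => cond (nz (tab t f 0 0) [2, 3]) (allL L16 fun z =>
    cond (nz (tab t f z 0) [4, 5, 6, 7]) (allL L16 fun b => force (tab t f z b) fun T =>
      cond (nz T [8, 9, 10, 11, 12, 13, 14, 15]) (cond (allW W (okW T φ)) (P T) true) true) true) true

noncomputable def isM (T φ : ℕ) (w : List ℕ) (t f z b : ℕ) : Bool :=
  Nat.beq (act T φ w 1) t && Nat.beq (act T φ w 2) f && Nat.beq (act T φ w 4) z &&
    Nat.beq (act T φ w 8) b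

theorem force_eq (T : ℕ) (k : ℕ → Bool) : force T k = k T := by cases T <;> rfl

theorem allL_spec {l : List ℕ} {p : ℕ → Bool} : allL l p = true ↔ ∀ i ∈ l, p i = true := by
  induction l with
  | nil => simp [allL]
  | cons i l ih =>
    have e : allL (i :: l) p = cond (p i) (allL l p) false := rfl
    rw [e, List.forall_mem_cons, ← ih]
    cases p i <;> simp

theorem allW_spec {l : List (List ℕ)} {p : List ℕ → Bool} :
    allW l p = true ↔ ∀ i ∈ l, p i = true := by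
  induction l with
  | nil => simp [allW]
  | cons i l ih =>
    have e : allW (i :: l) p = cond (p i) (allW l p) false := rfl
    rw [e, List.forall_mem_cons, ← ih]
    cases p i <;> simp

theorem look_lt (T v : ℕ) : look T v < 16 := Nat.mod_lt _ (by norm_num)

theorem look_xor (S T v : ℕ) : look (Nat.xor S T) v = look S v ^^^ look T v := by
  show ((S ^^^ T) >>> (4 * v)) % 2 ^ 4 = (S >>> (4 * v)) % 2 ^ 4 ^^^ (T >>> (4 * v)) % 2 ^ 4
  rw [Nat.shiftRight_xor_distrib, Nat.xor_mod_two_pow]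

theorem look_mul : ∀ x < 16, ∀ v < 16,
    look (Nat.mul x 0x1010101010101010) v = cond (v.testBit 0) x 0 ∧
    look (Nat.mul x 0x1100110011001100) v = cond (v.testBit 1) x 0 ∧
    look (Nat.mul x 0x1111000011110000) v = cond (v.testBit 2) x 0 ∧
    look (Nat.mul x 0x1111111100000000) v = cond (v.testBit 3) x 0 := by decide +kernel

theorem look_tab {t f z b v : ℕ} (ht : t < 16) (hf : f < 16) (hz : z < 16) (hb : b < 16)
    (hv : v < 16) : look (tab t f z b) v = (cond (v.testBit 0) t 0 ^^^ cond (v.testBit 1) f 0) ^^^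
      (cond (v.testBit 2) z 0 ^^^ cond (v.testBit 3) b 0) := by
  rw [tab, look_xor, look_xor, look_xor, (look_mul t ht v hv).1, (look_mul f hf v hv).2.1,
    (look_mul z hz v hv).2.2.1, (look_mul b hb v hv).2.2.2]

theorem mem_L16 : ∀ v < 16, v ∈ L16 := by decide

theorem chk_spec {φ : ℕ} {W : List (List ℕ)} {P : ℕ → Bool} {ts : List ℕ}
    (h : chk φ W P ts = true) {t f z b : ℕ} (hs : t ∈ ts) (ht : t < 16) (hf : f < 16) (hz : z < 16)
    (hb : b < 16) (hi : ∀ v < 16, look (tab t f z b) v = 0 → v = 0)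
    (hW : ∀ w ∈ W, okW (tab t f z b) φ w = true) : P (tab t f z b) = true := by
  have k : ∀ (T : ℕ) (l : List ℕ), (∀ v ∈ l, v < 16 ∧ v ≠ 0 ∧ look T v = look (tab t f z b) v) →
      nz T l = true := fun T l hl => allL_spec.2 fun v hv => by
    obtain ⟨h1, h2, h3⟩ := hl v hv
    rw [h3, Bool.not_eq_true', ← Bool.not_eq_true, Nat.beq_eq]
    exact fun e => h2 (hi v h1 e)
  have h0 : (0 : ℕ) < 16 := by norm_num
  have h1 := allL_spec.1 (allL_spec.1 h t hs) f (mem_L16 f hf)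
  rw [k (tab t f 0 0) [2, 3] (by
    simp only [List.forall_mem_cons, List.not_mem_nil, false_imp_iff, implies_true, and_true]
    refine ⟨⟨by norm_num, by norm_num, ?_⟩, by norm_num, by norm_num, ?_⟩ <;>
      rw [look_tab ht hf h0 h0 (by norm_num), look_tab ht hf hz hb (by norm_num)] <;> rfl),
    cond_true] at h1
  have h2 := allL_spec.1 h1 z (mem_L16 z hz)
  rw [k (tab t f z 0) [4, 5, 6, 7] (by
    simp only [List.forall_mem_cons, List.not_mem_nil, false_imp_iff, implies_true, and_true]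
    refine ⟨⟨by norm_num, by norm_num, ?_⟩, ⟨by norm_num, by norm_num, ?_⟩,
      ⟨by norm_num, by norm_num, ?_⟩, by norm_num, by norm_num, ?_⟩ <;>
      rw [look_tab ht hf hz h0 (by norm_num), look_tab ht hf hz hb (by norm_num)] <;> rfl),
    cond_true] at h2
  have h3 := allL_spec.1 h2 b (mem_L16 b hb)
  rw [force_eq, k _ _ (fun v hv => ⟨by revert v; decide, by revert v; decide, rfl⟩), cond_true,
    allW_spec.2 hW, cond_true] at h3
  exact h3

theorem okW_of {T φ : ℕ} {w : List ℕ} (h1 : act T φ w 1 % 4 ≠ 0)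
    (h2 : act T φ w 1 = 1 → act T φ w 2 = 2 ∧ act T φ w 4 % 4 = 0 ∧ act T φ w 8 % 4 = 0) :
    okW T φ w = true := by
  rw [okW, force_eq]
  have e1 : Nat.beq (Nat.mod (act T φ w 1) 4) 0 = false := by
    rw [← Bool.not_eq_true, Nat.beq_eq]; exact h1
  rw [e1, cond_false]
  cases e2 : Nat.beq (act T φ w 1) 1
  · rfl
  · obtain ⟨a, b, c⟩ := h2 (Nat.eq_of_beq_eq_true e2)
    rw [cond_true, Bool.and_eq_true, Bool.and_eq_true, Nat.beq_eq, Nat.beq_eq, Nat.beq_eq]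
    exact ⟨⟨a, b⟩, c⟩

theorem isM_spec {T φ : ℕ} {w : List ℕ} {t f z b : ℕ} (h : isM T φ w t f z b = true) :
    act T φ w 1 = t ∧ act T φ w 2 = f ∧ act T φ w 4 = z ∧ act T φ w 8 = b := by
  simpa only [isM, Bool.and_eq_true, Nat.beq_eq, and_assoc] using h

theorem tab_eq : tab 1 2 8 12 = 0x7654FEDCBA983210 ∧ tab 1 2 4 12 = 0xBA98FEDC76543210 ∧
    tab 5 2 4 8 = 0xBE9CFAD836147250 ∧ tab 5 2 4 10 = 0x9CBED8FA36147250 := by decide +kernel

theorem big2 : isM 0xFEDCBA9876543210 0x9CBED8FA36147250 [1, 3, 1, 3, 1, 3] 3 2 4 8 = true := by decide +kernel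

def W0 : List (List ℕ) := [[0, 0], [0, 1, 0], [0, 1, 1, 0], [0, 2, 0, 0, 0], [0, 0, 2, 0],
  [0, 0, 2, 0, 0, 0], [0, 0, 2, 0, 2, 0], [0, 2, 0, 0, 2, 0, 0], [0, 0, 0, 2, 0], [0, 2, 0, 2, 0, 0],
  [0, 1, 0, 2, 1, 0, 1, 0], [0, 1, 0, 1, 0, 1, 1, 0]]

noncomputable def P0 (T : ℕ) : Bool :=
  [[0], [0, 1], [0, 1, 1], [0, 2], [0, 1, 2], [0, 1, 1, 2]].any fun w =>
  isM T 0xFEDCBA9876543210 w 5 2 4 8 || isM T 0xFEDCBA9876543210 w 5 2 4 10 ||
    isM T 0xFEDCBA9876543210 w 5 6 4 8 || isM T 0xFEDCBA9876543210 w 5 6 4 11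

theorem chk0 : chk 0xFEDCBA9876543210 W0 P0 [5] = true := by decide +kernel

def W1 : List (List ℕ) := [[0, 0], [0, 3], [0, 1, 3], [3, 0, 0, 3], [3, 0, 3, 0], [0, 0, 1, 3],
  [0, 0, 1, 0], [0, 1, 1, 3], [0, 0, 1, 1, 3], [0, 0, 3], [0, 0, 1, 0, 3], [0, 1, 2, 0, 0],
  [0, 1, 3, 0], [3, 1, 0], [0, 0, 3, 0, 3], [3, 1, 0, 3], [0, 0, 3, 0], [0, 1, 3, 0, 3],
  [0, 0, 0, 3, 0], [0, 3, 0, 0], [3, 0, 1, 0], [3, 0, 1, 0, 3], [0, 0, 0, 3], [3, 0, 3, 0, 0],
  [3, 0, 1, 3], [0, 0, 0, 2, 0], [3, 0, 0, 0, 3], [0, 3, 0, 3], [0]]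

def E1 : List (List ℕ) := [[0, 0, 0], [0, 2, 1, 3], [0, 1, 3, 1, 2], [0, 1, 2, 3], [0, 2, 3, 1],
  [0, 2, 3], [0, 2, 1], [0, 3, 1, 2], [0, 2, 1, 3, 1], [0, 1, 1, 3, 1, 2], [0, 1, 2],
  [0, 1, 2, 3, 1], [0, 3], [0, 2], [0, 1, 3, 1, 1], [0, 1, 1, 3, 1]]

noncomputable def P1 (T : ℕ) : Bool := look T 1 % 2 == 1 && look T 2 == 2 && look T 4 % 4 == 0 &&
  look T 8 % 4 == 0 && (look T 1 % 4 == 1 || E1.any fun w => isM T 0xBE9CFAD836147250 w 3 2 4 8)


theorem chk1 : chk 0xBE9CFAD836147250 W1 P1 [1, 2, 3, 5, 6, 7, 9, 10, 11, 13, 14, 15] = true := by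
  decide +kernel

def W2 : List (List ℕ) := [[0, 0], [0, 3], [3, 0], [3, 0, 3], [3, 0, 0], [0, 1, 3], [0, 0, 3],
  [3, 0, 1, 3], [0, 0, 1, 3], [3, 1, 1, 0], [3, 0, 0, 1, 3], [0, 0, 0], [3, 1, 1, 0, 3],
  [3, 0, 0, 3], [0, 3, 1, 3], [0, 1, 1, 3], [3, 0, 1, 1, 3], [0, 2, 3, 1, 3], [0, 1, 3, 1, 3],
  [0, 1, 0, 0], [3, 0, 2, 0, 0], [0, 1, 0], [3, 1, 0], [0]]

noncomputable def P2 (T : ℕ) : Bool := look T 1 % 2 == 1 && look T 2 == 2 && look T 4 % 2 == 0 &&
  look T 8 % 2 == 0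

theorem chk2 : chk 0x9CBED8FA36147250 W2 P2 [1, 2, 3, 5, 6, 7, 9, 10, 11, 13, 14, 15] = true := by
  decide +kernel
theorem eqns_NAc : True := by
  have := @look.eq_1; have := @tab.eq_1; have := @force.eq_1; have := @gn.eq_1; have := @act.eq_1
  have := @okW.eq_1; have := @allL.eq_1; have := @allW.eq_1; have := @L16.eq_1; have := @nz.eq_1
  have := @chk.eq_1; have := @isM.eq_1; have := @W0.eq_1; have := @P0.eq_1; have := @W1.eq_1
  have := @E1.eq_1; have := @P1.eq_1; have := @W2.eq_1; have := @P2.eq_1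
  trivial

end H69.L33.NA
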